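import Groth.Prelude.Def_EtGlue
import Mathlib

/-!
# Helper lemmas for `Def_EtGlue` (helper3)

* `surj_level`, `inj_level`: the two halves of `EtGlue.QuotPowBijective` in elementwise form.
* `torsion_mk_bijective`: if `R/f^n → R'/f^n` is bijective for all `n > 0`, then for every
  `f`-power torsion `R`-module `Q` the map `q ↦ 1 ⊗ q : Q → R' ⊗_R Q` is bijective.
-/

universe u

open TensorProduct

namespace Groth.Agent.Lib.Helper3.EtGlue

variable {R R' : Type u} [CommRing R] [CommRing R'] [Algebra R R'] {f : R}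

theorem surj_level (hq : EtGlue.QuotPowBijective R R' f) (n : ℕ) (x' : R') :
    ∃ (r : R) (y' : R'), x' = algebraMap R R' r + algebraMap R R' f ^ n * y' := by
  rcases Nat.eq_zero_or_pos n with rfl | hn
  · exact ⟨0, x', by simp⟩
  obtain ⟨a, ha⟩ := (hq n hn).2 (Ideal.Quotient.mk _ x')
  obtain ⟨r, rfl⟩ := Ideal.Quotient.mk_surjective a
  rw [Ideal.quotientMap_mk, Ideal.Quotient.eq, Ideal.map_span, Set.image_singleton,
    Ideal.mem_span_singleton'] at ha
  obtain ⟨y', hy'⟩ := ha
  refine ⟨r, -y', ?_⟩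
  rw [map_pow] at hy'
  linear_combination hy'

theorem inj_level (hq : EtGlue.QuotPowBijective R R' f) (n : ℕ) (r : R) (y' : R')
    (h : algebraMap R R' r = algebraMap R R' f ^ n * y') : ∃ s : R, r = f ^ n * s := by
  rcases Nat.eq_zero_or_pos n with rfl | hn
  · exact ⟨r, by simp⟩
  have : Ideal.Quotient.mk (Ideal.span {f ^ n}) r = Ideal.Quotient.mk (Ideal.span {f ^ n}) 0 := by
    apply (hq n hn).1
    rw [Ideal.quotientMap_mk, Ideal.quotientMap_mk, Ideal.Quotient.eq, Ideal.map_span,
      Set.image_singleton, Ideal.mem_span_singleton', map_zero, sub_zero, h, map_pow]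
    exact ⟨y', mul_comm _ _⟩
  rw [Ideal.Quotient.eq, sub_zero, Ideal.mem_span_singleton'] at this
  obtain ⟨s, hs⟩ := this
  exact ⟨s, by rw [← hs, mul_comm]⟩

theorem loc_eq_zero_iff (f : R) (r : R) :
    algebraMap R (Localization.Away f) r = 0 ↔ ∃ n : ℕ, f ^ n * r = 0 := by
  rw [IsLocalization.map_eq_zero_iff (Submonoid.powers f)]
  constructor
  · rintro ⟨⟨_, n, rfl⟩, h⟩
    exact ⟨n, h⟩
  · rintro ⟨n, h⟩
    exact ⟨⟨_, n, rfl⟩, h⟩

theorem awayMap_algebraMap (f : R) (r : R) :
    Localization.awayMap (algebraMap R R') f (algebraMap R (Localization.Away f) r) =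
      algebraMap R' (Localization.Away (algebraMap R R' f)) (algebraMap R R' r) :=
  IsLocalization.map_eq _ _

section torsion

variable (Q : Type u) [AddCommGroup Q] [Module R Q]

/-- The `R'`-"action" on an `f`-power torsion module (well defined by `inj_level`). -/
noncomputable def act (hQ : ∀ q : Q, ∃ n : ℕ, f ^ n • q = 0) (hq : EtGlue.QuotPowBijective R R' f)
    (r' : R') (q : Q) : Q :=
  (surj_level hq (hQ q).choose r').choose • q

theorem act_spec (hQ : ∀ q : Q, ∃ n : ℕ, f ^ n • q = 0) (hq : EtGlue.QuotPowBijective R R' f)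
    (r' : R') (q : Q) (n : ℕ) (hn : f ^ n • q = 0) (r : R) (y' : R')
    (hr : r' = algebraMap R R' r + algebraMap R R' f ^ n * y') :
    act Q hQ hq r' q = r • q := by
  classical
  unfold act
  set N := (hQ q).choose with hN
  have hNq : f ^ N • q = 0 := (hQ q).choose_spec
  obtain ⟨y₀, hy₀⟩ := (surj_level hq N r').choose_spec
  set r₀ := (surj_level hq N r').choose
  -- reduce to the smaller of the two levels
  rcases le_total N n with hle | hle
  · obtain ⟨k, rfl⟩ := Nat.exists_eq_add_of_le hle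
    have h : algebraMap R R' (r - r₀) = algebraMap R R' f ^ N * (y₀ - algebraMap R R' f ^ k * y') := by
      rw [map_sub]
      linear_combination hy₀ - hr
    obtain ⟨s, hs⟩ := inj_level hq N _ _ h
    have : (r - r₀) • q = 0 := by rw [hs, mul_comm, mul_smul, hNq, smul_zero]
    rw [sub_smul, sub_eq_zero] at this
    exact this.symm
  · obtain ⟨k, hk⟩ := Nat.exists_eq_add_of_le hle
    rw [hk] at hy₀
    have h : algebraMap R R' (r₀ - r) = algebraMap R R' f ^ n * (y' - algebraMap R R' f ^ k * y₀) := by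
      rw [map_sub]
      linear_combination hr - hy₀
    obtain ⟨s, hs⟩ := inj_level hq n _ _ h
    have : (r₀ - r) • q = 0 := by rw [hs, mul_comm, mul_smul, hn, smul_zero]
    rw [sub_smul, sub_eq_zero] at this
    exact this

theorem torsion_mono {Q : Type u} [AddCommGroup Q] [Module R Q] {q : Q} {n m : ℕ}
    (hn : f ^ n • q = 0) (hnm : n ≤ m) : f ^ m • q = 0 := by
  obtain ⟨k, rfl⟩ := Nat.exists_eq_add_of_le hnm
  rw [pow_add, mul_comm, mul_smul, hn, smul_zero]

variable (hQ : ∀ q : Q, ∃ n : ℕ, f ^ n • q = 0) (hq : EtGlue.QuotPowBijective R R' f)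

theorem act_one (q : Q) : act Q hQ hq 1 q = q := by
  rw [act_spec Q hQ hq 1 q _ (hQ q).choose_spec 1 0 (by simp), one_smul]

theorem act_add_left (r₁ r₂ : R') (q : Q) :
    act Q hQ hq (r₁ + r₂) q = act Q hQ hq r₁ q + act Q hQ hq r₂ q := by
  obtain ⟨n, hn⟩ := hQ q
  obtain ⟨a₁, y₁, h₁⟩ := surj_level hq n r₁
  obtain ⟨a₂, y₂, h₂⟩ := surj_level hq n r₂
  rw [act_spec Q hQ hq r₁ q n hn a₁ y₁ h₁, act_spec Q hQ hq r₂ q n hn a₂ y₂ h₂,
    act_spec Q hQ hq (r₁ + r₂) q n hn (a₁ + a₂) (y₁ + y₂) (by rw [h₁, h₂, map_add]; ring),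
    add_smul]

theorem act_smul_left (c : R) (r' : R') (q : Q) :
    act Q hQ hq (c • r') q = c • act Q hQ hq r' q := by
  obtain ⟨n, hn⟩ := hQ q
  obtain ⟨a, y, h⟩ := surj_level hq n r'
  rw [act_spec Q hQ hq r' q n hn a y h,
    act_spec Q hQ hq (c • r') q n hn (c * a) (algebraMap R R' c * y)
      (by rw [Algebra.smul_def, h, map_mul]; ring), mul_smul]

theorem act_add_right (r' : R') (q₁ q₂ : Q) :
    act Q hQ hq r' (q₁ + q₂) = act Q hQ hq r' q₁ + act Q hQ hq r' q₂ := by
  obtain ⟨n₁, hn₁⟩ := hQ q₁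
  obtain ⟨n₂, hn₂⟩ := hQ q₂
  have h₁ : f ^ (n₁ + n₂) • q₁ = 0 := torsion_mono hn₁ (Nat.le_add_right _ _)
  have h₂ : f ^ (n₁ + n₂) • q₂ = 0 := torsion_mono hn₂ (Nat.le_add_left _ _)
  obtain ⟨a, y, h⟩ := surj_level hq (n₁ + n₂) r'
  rw [act_spec Q hQ hq r' q₁ _ h₁ a y h, act_spec Q hQ hq r' q₂ _ h₂ a y h,
    act_spec Q hQ hq r' (q₁ + q₂) _ (by rw [smul_add, h₁, h₂, add_zero]) a y h, smul_add]

theorem act_smul_right (c : R) (r' : R') (q : Q) :
    act Q hQ hq r' (c • q) = c • act Q hQ hq r' q := by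
  obtain ⟨n, hn⟩ := hQ q
  obtain ⟨a, y, h⟩ := surj_level hq n r'
  rw [act_spec Q hQ hq r' q n hn a y h,
    act_spec Q hQ hq r' (c • q) n (by rw [smul_comm, hn, smul_zero]) a y h, smul_comm]

/-- The bilinear map `(r', q) ↦ r' • q` on an `f`-power torsion module. -/
noncomputable def actBil : R' →ₗ[R] Q →ₗ[R] Q :=
  LinearMap.mk₂ R (act Q hQ hq) (act_add_left Q hQ hq) (act_smul_left Q hQ hq)
    (act_add_right Q hQ hq) (fun c r' q => act_smul_right Q hQ hq c r' q)

/-- The retraction `R' ⊗_R Q → Q` of `q ↦ 1 ⊗ q` for an `f`-power torsion module `Q`. -/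
noncomputable def retr : R' ⊗[R] Q →ₗ[R] Q := TensorProduct.lift (actBil Q hQ hq)

theorem retr_one_tmul (q : Q) : retr Q hQ hq ((1 : R') ⊗ₜ[R] q) = q := by
  simp only [retr, actBil, TensorProduct.lift.tmul, LinearMap.mk₂_apply, act_one]

include hQ hq in
theorem torsion_mk_injective : Function.Injective (TensorProduct.mk R R' Q 1) := by
  intro a b h
  rw [← retr_one_tmul Q hQ hq a, ← retr_one_tmul Q hQ hq b]
  exact congrArg (retr Q hQ hq) h

include hQ hq in
theorem torsion_mk_surjective : Function.Surjective (TensorProduct.mk R R' Q 1) := by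
  intro x
  induction x using TensorProduct.induction_on with
  | zero => exact ⟨0, by simp⟩
  | tmul r' q =>
    obtain ⟨n, hn⟩ := hQ q
    obtain ⟨r, y', hr⟩ := surj_level hq n r'
    refine ⟨r • q, ?_⟩
    have e1 : (algebraMap R R' f ^ n * y') ⊗ₜ[R] q = 0 := by
      rw [← map_pow, ← Algebra.smul_def, TensorProduct.smul_tmul, hn, TensorProduct.tmul_zero]
    have e2 : (algebraMap R R' r) ⊗ₜ[R] q = (1 : R') ⊗ₜ[R] (r • q) := by
      rw [Algebra.algebraMap_eq_smul_one, TensorProduct.smul_tmul]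
    rw [TensorProduct.mk_apply, hr, TensorProduct.add_tmul, e1, e2, add_zero]
  | add x y hx hy =>
    obtain ⟨a, rfl⟩ := hx
    obtain ⟨b, rfl⟩ := hy
    exact ⟨a + b, map_add _ _ _⟩

include hQ hq in
theorem torsion_mk_bijective : Function.Bijective (TensorProduct.mk R R' Q 1) :=
  ⟨torsion_mk_injective Q hQ hq, torsion_mk_surjective Q hQ hq⟩

end torsion

section modules

open scoped Pointwise

variable {M : Type u} [AddCommGroup M] [Module R M]

theorem mk_eq_zero_iff' (f : R) (m : M) :
    LocalizedModule.mkLinearMap (Submonoid.powers f) M m = 0 ↔ ∃ n : ℕ, f ^ n • m = 0 := by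
  rw [IsLocalizedModule.eq_zero_iff (Submonoid.powers f)]
  constructor
  · rintro ⟨⟨_, n, rfl⟩, h⟩
    exact ⟨n, h⟩
  · rintro ⟨n, h⟩
    exact ⟨⟨_, n, rfl⟩, h⟩

/-- If `1 ⊗ m` is divisible by `f^k` in `R' ⊗ M`, then `m` is divisible by `f^k` in `M`. -/
theorem exists_of_tmul_eq_smul (hq : EtGlue.QuotPowBijective R R' f) (k : ℕ) (m : M)
    (z : R' ⊗[R] M) (h : (1 : R') ⊗ₜ[R] m = f ^ k • z) : ∃ m₁ : M, m = f ^ k • m₁ := by
  let N : Submodule R M := (f ^ k) • (⊤ : Submodule R M)
  have hQ : ∀ q : M ⧸ N, ∃ n : ℕ, f ^ n • q = 0 := by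
    intro q
    obtain ⟨m', rfl⟩ := Submodule.Quotient.mk_surjective N q
    refine ⟨k, ?_⟩
    rw [← Submodule.Quotient.mk_smul, Submodule.Quotient.mk_eq_zero]
    exact Submodule.smul_mem_pointwise_smul _ _ _ Submodule.mem_top
  have hkill : ∀ w : R' ⊗[R] (M ⧸ N), f ^ k • w = 0 := by
    intro w
    induction w using TensorProduct.induction_on with
    | zero => simp
    | tmul r' q =>
      obtain ⟨m', rfl⟩ := Submodule.Quotient.mk_surjective N q
      rw [← TensorProduct.tmul_smul, ← Submodule.Quotient.mk_smul,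
        (Submodule.Quotient.mk_eq_zero N).mpr
          (Submodule.smul_mem_pointwise_smul _ _ _ Submodule.mem_top), TensorProduct.tmul_zero]
    | add a b ha hb => rw [smul_add, ha, hb, add_zero]
  have h2 : (1 : R') ⊗ₜ[R] (N.mkQ m) = 0 := by
    have := congrArg (LinearMap.lTensor R' N.mkQ) h
    rw [LinearMap.lTensor_tmul, map_smul, hkill] at this
    exact this
  have h3 : N.mkQ m = 0 := torsion_mk_injective (M ⧸ N) hQ hq (by
    rw [TensorProduct.mk_apply, TensorProduct.mk_apply, h2, TensorProduct.tmul_zero])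
  rw [Submodule.mkQ_apply, Submodule.Quotient.mk_eq_zero] at h3
  obtain ⟨m₁, -, hm₁⟩ := (Submodule.mem_smul_pointwise_iff_exists _ _ _).mp h3
  exact ⟨m₁, hm₁.symm⟩

/-- For a glueing pair, every `f`-power torsion element of `R' ⊗ M` is `1 ⊗ m` for some
`f`-power torsion element `m` of `M`. -/
theorem torsion_surj_of_glueingPair (hRR : EtGlue.IsGlueingPair R R' f) (x : R' ⊗[R] M)
    (hx : ∃ n : ℕ, f ^ n • x = 0) : ∃ m : M, (∃ n : ℕ, f ^ n • m = 0) ∧ (1 : R') ⊗ₜ[R] m = x := by
  obtain ⟨-, -, hfib, hsurj⟩ := hRR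
  obtain ⟨n, hn⟩ := hx
  let aw : Localization.Away f →ₗ[R] Localization.Away (algebraMap R R' f) :=
    { toFun := Localization.awayMap (algebraMap R R') f
      map_add' := map_add _
      map_smul' := fun r y => by
        rw [Algebra.smul_def, map_mul, awayMap_algebraMap, RingHom.id_apply, Algebra.smul_def,
          ← IsScalarTower.algebraMap_apply] }
  let φ : R →ₗ[R] R' × Localization.Away f :=
    LinearMap.prod (Algebra.linearMap R R') (Algebra.linearMap R (Localization.Away f))
  let ψ : R' × Localization.Away f →ₗ[R] Localization.Away (algebraMap R R' f) :=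
    ((Algebra.linearMap R' (Localization.Away (algebraMap R R' f))).restrictScalars R) ∘ₗ
      LinearMap.fst R R' (Localization.Away f) - aw ∘ₗ LinearMap.snd R R' (Localization.Away f)
  have hψ : ∀ a b, ψ (a, b) = algebraMap R' (Localization.Away (algebraMap R R' f)) a -
      Localization.awayMap (algebraMap R R') f b := fun _ _ => rfl
  have hex : Function.Exact φ ψ := by
    rintro ⟨a, b⟩
    rw [hψ, sub_eq_zero]
    constructor
    · intro h
      obtain ⟨r, hr1, hr2⟩ := hfib a b h
      exact ⟨r, Prod.ext hr1 hr2⟩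
    · rintro ⟨r, hr⟩
      have h1 : algebraMap R R' r = a := congrArg Prod.fst hr
      have h2 : algebraMap R (Localization.Away f) r = b := congrArg Prod.snd hr
      rw [← h1, ← h2, awayMap_algebraMap]
  have hsurjψ : Function.Surjective ψ := by
    intro z
    obtain ⟨a, b, h⟩ := hsurj z
    exact ⟨(a, b), h⟩
  have hex' := rTensor_exact M hex hsurjψ
  -- the image of `x` in `R'_f ⊗ M` vanishes
  let ι' : R' →ₗ[R] Localization.Away (algebraMap R R' f) :=
    (Algebra.linearMap R' (Localization.Away (algebraMap R R' f))).restrictScalars R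
  have hψinl : ψ ∘ₗ LinearMap.inl R R' (Localization.Away f) = ι' := by
    ext a
    simp [ψ, ι', aw]
  have hunit : IsUnit (algebraMap R (Localization.Away (algebraMap R R' f)) (f ^ n)) := by
    rw [IsScalarTower.algebraMap_apply R R' (Localization.Away (algebraMap R R' f)), map_pow,
      map_pow]
    exact (IsLocalization.Away.algebraMap_isUnit (algebraMap R R' f)).pow n
  obtain ⟨u, hu⟩ := hunit
  let e : Localization.Away (algebraMap R R' f) ≃ₗ[R] Localization.Away (algebraMap R R' f) :=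
    { toFun := fun a => (u : Localization.Away (algebraMap R R' f)) * a
      invFun := fun a => ((u⁻¹ : (Localization.Away (algebraMap R R' f))ˣ) :
        Localization.Away (algebraMap R R' f)) * a
      map_add' := fun a b => mul_add _ _ _
      map_smul' := fun r a => by rw [RingHom.id_apply, mul_smul_comm]
      left_inv := fun a => by simp [← mul_assoc]
      right_inv := fun a => by simp [← mul_assoc] }
  have he : ∀ w : Localization.Away (algebraMap R R' f) ⊗[R] M,
      LinearMap.rTensor M e.toLinearMap w = f ^ n • w := by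
    intro w
    induction w using TensorProduct.induction_on with
    | zero => simp
    | tmul a m =>
      rw [LinearMap.rTensor_tmul, TensorProduct.smul_tmul']
      congr 1
      simp only [e, LinearMap.coe_mk, AddHom.coe_mk]
      rw [hu, Algebra.smul_def]
    | add a b ha hb => rw [map_add, ha, hb, smul_add]
  have hy : LinearMap.rTensor M ι' x = 0 := by
    have h1 : LinearMap.rTensor M e.toLinearMap (LinearMap.rTensor M ι' x) = 0 := by
      rw [he, ← map_smul, hn, map_zero]
    have hinj : Function.Injective (LinearMap.rTensor M e.toLinearMap) := by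
      have := (LinearEquiv.rTensor M e).injective
      exact this
    exact hinj (by rw [h1, map_zero])
  have ht : LinearMap.rTensor M ψ (LinearMap.rTensor M (LinearMap.inl R R' (Localization.Away f)) x)
      = 0 := by
    rw [← LinearMap.rTensor_comp_apply, hψinl, hy]
  obtain ⟨s, hs⟩ := (hex' _).mp ht
  set m := TensorProduct.lid R M s with hm
  have hs' : s = (1 : R) ⊗ₜ[R] m := by
    rw [hm, ← TensorProduct.lid_symm_apply, LinearEquiv.symm_apply_apply]
  rw [hs', LinearMap.rTensor_tmul] at hs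
  have hφ1 : φ 1 = (1, 1) := by simp [φ]
  rw [hφ1] at hs
  have hfst := congrArg (LinearMap.rTensor M (LinearMap.fst R R' (Localization.Away f))) hs
  have hsnd := congrArg (LinearMap.rTensor M (LinearMap.snd R R' (Localization.Away f))) hs
  rw [LinearMap.rTensor_tmul, ← LinearMap.rTensor_comp_apply, LinearMap.fst_comp_inl,
    LinearMap.rTensor_id, LinearMap.id_apply] at hfst
  rw [LinearMap.rTensor_tmul, ← LinearMap.rTensor_comp_apply, LinearMap.snd_comp_inl,
    LinearMap.rTensor_zero, LinearMap.zero_apply] at hsnd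
  simp only [LinearMap.fst_apply, LinearMap.snd_apply] at hfst hsnd
  refine ⟨m, ?_, hfst⟩
  rw [← mk_eq_zero_iff' f m]
  have := (LocalizedModule.isBaseChange (Submonoid.powers f) M).equiv_tmul 1 m
  rw [one_smul, hsnd, map_zero] at this
  exact this.symm

end modules

end Groth.Agent.Lib.Helper3.EtGlue
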