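import Groth.Prelude.Def_MoreMor
import Mathlib.AlgebraicGeometry.Morphisms.FormallyUnramified
import Mathlib.AlgebraicGeometry.Morphisms.Etale
import Mathlib.AlgebraicGeometry.IdealSheaf.Functorial
import Mathlib.RingTheory.Etale.Basic
import Mathlib.RingTheory.Spectrum.Prime.RingHom

/-!
# Formally étale morphisms of schemes: local-to-global lifting (helper3)

* `spec_mk_surj`, `spec_mk_isFirstOrderThickening`: `Spec (A/I) → Spec A` with `I² = 0`.
* `specLift_of_formallySmooth`: Spec-form lifting for maps landing in affine opens.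
* `exists_affine_normalForm`: a first-order thickening of an affine scheme is `Spec (B/J) → Spec B`.
* `glue_lift`: local lifts glue along a first-order thickening when `f` is formally unramified.
-/

set_option autoImplicit false

universe u

open CategoryTheory CategoryTheory.Limits AlgebraicGeometry

namespace Groth.Agent.Lib.Helper3.FEt

theorem spec_mk_surj (A : Type u) [CommRing A] (I : Ideal A) (hI : I ^ 2 = ⊥) :
    Function.Surjective (Spec.map (CommRingCat.ofHom (Ideal.Quotient.mk I))) := by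
  intro p
  have : p ∈ Set.range (PrimeSpectrum.comap (Ideal.Quotient.mk I)) := by
    rw [range_comap_of_surjective _ _ Ideal.Quotient.mk_surjective, Ideal.mk_ker]
    show (I : Set A) ⊆ p.asIdeal
    intro x hx
    apply p.isPrime.mem_of_pow_mem 2
    have h2 : x ^ 2 ∈ I ^ 2 := Ideal.pow_mem_pow hx 2
    rw [hI, Ideal.mem_bot] at h2
    rw [h2]
    exact p.asIdeal.zero_mem
  obtain ⟨q, hq⟩ := this
  exact ⟨q, hq⟩

theorem spec_mk_isFirstOrderThickening (A : Type u) [CommRing A] (I : Ideal A) (hI : I ^ 2 = ⊥) :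
    MoreMor.IsFirstOrderThickening (Spec.map (CommRingCat.ofHom (Ideal.Quotient.mk I))) := by
  have hci : IsClosedImmersion (Spec.map (CommRingCat.ofHom (Ideal.Quotient.mk I))) :=
    IsClosedImmersion.spec_of_surjective _ Ideal.Quotient.mk_surjective
  refine ⟨⟨hci, ⟨spec_mk_surj A I hI⟩⟩, ?_⟩
  apply Scheme.IdealSheafData.ext_of_isAffine
  simp only [Scheme.IdealSheafData.ideal_mul, Pi.mul_apply, Scheme.Hom.ker_apply,
    Scheme.IdealSheafData.ideal_bot, Pi.bot_apply]
  rw [eq_bot_iff, Ideal.mul_le]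
  intro x hx y hy
  rw [RingHom.mem_ker] at hx hy
  have hnat := Scheme.ΓSpecIso_naturality (CommRingCat.ofHom (Ideal.Quotient.mk I))
  have key : ∀ z, (Spec.map (CommRingCat.ofHom (Ideal.Quotient.mk I))).app ⊤ z = 0 →
      (Scheme.ΓSpecIso (CommRingCat.of A)).hom z ∈ I := by
    intro z hz
    have := congrArg (fun φ => φ.hom z) hnat
    simp only [CommRingCat.hom_comp, RingHom.comp_apply, CommRingCat.hom_ofHom] at this
    rw [← Ideal.Quotient.eq_zero_iff_mem, ← this]
    erw [hz]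
    exact map_zero _
  have hxy : (Scheme.ΓSpecIso (CommRingCat.of A)).hom (x * y) = 0 := by
    rw [map_mul]
    have : (Scheme.ΓSpecIso (CommRingCat.of A)).hom x * (Scheme.ΓSpecIso (CommRingCat.of A)).hom y
        ∈ I ^ 2 := by
      rw [pow_two]; exact Ideal.mul_mem_mul (key x hx) (key y hy)
    rwa [hI, Ideal.mem_bot] at this
  rw [Ideal.mem_bot]
  have hinj : Function.Injective (Scheme.ΓSpecIso (CommRingCat.of A)).hom :=
    (ConcreteCategory.bijective_of_isIso _).1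
  exact hinj (by rw [hxy, map_zero])

/-- Maps from `Spec` landing in an affine open factor through `Spec.map` of a ring map. -/
theorem exists_specMap_of_range {X : Scheme.{u}} {U : X.Opens} (hU : IsAffineOpen U)
    {R : CommRingCat.{u}} (a : Spec R ⟶ X) (ha : Set.range a ⊆ U) :
    ∃ φ : Γ(X, U) ⟶ R, Spec.map φ ≫ hU.fromSpec = a := by
  have hr : Set.range a ⊆ Set.range hU.fromSpec := by rw [IsAffineOpen.range_fromSpec]; exact ha
  obtain ⟨φ, hφ⟩ := Spec.map_surjective (IsOpenImmersion.lift hU.fromSpec a hr)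
  exact ⟨φ, by rw [hφ, IsOpenImmersion.lift_fac]⟩

/-- Spec-form lifting for a formally smooth ring map between affine opens. -/
theorem specLift_of_formallySmooth {X Y : Scheme.{u}} (f : X ⟶ Y) {U : X.Opens} {V : Y.Opens}
    (hU : IsAffineOpen U) (hV : IsAffineOpen V) (hUV : U ≤ f ⁻¹ᵁ V)
    (hfs : letI := (f.appLE V U hUV).hom.toAlgebra; Algebra.FormallySmooth Γ(Y, V) Γ(X, U))
    (B : Type u) [CommRing B] (J : Ideal B) (hJ : J ^ 2 = ⊥)
    (a : Spec (CommRingCat.of (B ⧸ J)) ⟶ X) (b : Spec (CommRingCat.of B) ⟶ Y)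
    (ha : Set.range a ⊆ U) (hb : Set.range b ⊆ V)
    (w : Spec.map (CommRingCat.ofHom (Ideal.Quotient.mk J)) ≫ b = a ≫ f) :
    ∃ l : Spec (CommRingCat.of B) ⟶ X,
      Spec.map (CommRingCat.ofHom (Ideal.Quotient.mk J)) ≫ l = a ∧ l ≫ f = b := by
  obtain ⟨φa, rfl⟩ := exists_specMap_of_range hU a ha
  obtain ⟨φb, rfl⟩ := exists_specMap_of_range hV b hb
  have hsq : φb ≫ CommRingCat.ofHom (Ideal.Quotient.mk J) = f.appLE V U hUV ≫ φa := by
    apply Spec.map_injective
    rw [← cancel_mono hV.fromSpec, Spec.map_comp, Spec.map_comp, Category.assoc, w,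
      Category.assoc, Category.assoc, IsAffineOpen.SpecMap_appLE_fromSpec f hV hU hUV]
  let _ := (f.appLE V U hUV).hom.toAlgebra
  let _ := φb.hom.toAlgebra
  let ψ : Γ(X, U) →ₐ[Γ(Y, V)] B ⧸ J :=
    { φa.hom with
      commutes' := fun r => by
        have := congrArg (fun g => g.hom r) hsq
        simp only [CommRingCat.hom_comp, RingHom.comp_apply, CommRingCat.hom_ofHom] at this
        show φa.hom (f.appLE V U hUV r) = Ideal.Quotient.mk J (φb.hom r)
        exact this.symm }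
  let σ := Algebra.FormallySmooth.lift J ⟨2, hJ⟩ ψ
  refine ⟨Spec.map (CommRingCat.ofHom σ.toRingHom) ≫ hU.fromSpec, ?_, ?_⟩
  · rw [← Category.assoc, ← Spec.map_comp]
    congr 2
    ext x
    show Ideal.Quotient.mk J (σ x) = φa.hom x
    exact Algebra.FormallySmooth.mk_lift J ⟨2, hJ⟩ ψ x
  · rw [Category.assoc, ← IsAffineOpen.SpecMap_appLE_fromSpec f hV hU hUV, ← Category.assoc,
      ← Spec.map_comp]
    congr 2
    ext r
    show σ (f.appLE V U hUV r) = φb.hom r
    exact σ.commutes r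

/-- A first-order thickening of an affine scheme is, up to isomorphism,
`Spec (B ⧸ J) → Spec B` with `J ^ 2 = ⊥`. -/
theorem exists_affine_normalForm {Z Z' : Scheme.{u}} (τ : Z' ⟶ Z)
    (hτ : MoreMor.IsFirstOrderThickening τ) [IsAffine Z] :
    ∃ (B : Type u) (_ : CommRing B) (J : Ideal B) (e : Z ≅ Spec (CommRingCat.of B))
      (e' : Z' ≅ Spec (CommRingCat.of (B ⧸ J))),
      J ^ 2 = ⊥ ∧ τ ≫ e.hom = e'.hom ≫ Spec.map (CommRingCat.ofHom (Ideal.Quotient.mk J)) := by
  have hci : IsClosedImmersion τ := hτ.1.1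
  obtain ⟨hZ', hsurj⟩ := IsClosedImmersion.isAffine_surjective_of_isAffine τ
  set J : Ideal Γ(Z, ⊤) := RingHom.ker τ.appTop.hom with hJdef
  have hJ : J ^ 2 = ⊥ := by
    have h := congrArg (fun I => Scheme.IdealSheafData.ideal I ⟨⊤, isAffineOpen_top Z⟩) hτ.2
    simp only [Scheme.IdealSheafData.ideal_mul, Pi.mul_apply, Scheme.Hom.ker_apply,
      Scheme.IdealSheafData.ideal_bot, Pi.bot_apply] at h
    rw [pow_two]
    exact h
  let eR : (Γ(Z, ⊤) ⧸ J) ≃+* Γ(Z', ⊤) := RingHom.quotientKerEquivOfSurjective hsurj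
  refine ⟨Γ(Z, ⊤), inferInstance, J, Z.isoSpec,
    Z'.isoSpec ≪≫ Scheme.Spec.mapIso (eR.toCommRingCatIso).op, hJ, ?_⟩
  rw [← Scheme.isoSpec_hom_naturality]
  simp only [Iso.trans_hom, Functor.mapIso_hom, Iso.op_hom, Scheme.Spec_map, Quiver.Hom.unop_op,
    Category.assoc, ← Spec.map_comp]
  congr 2

/-- (After helper15.) The restriction of a first-order thickening over an open of the target. -/
theorem isFirstOrderThickening_restrict {Z Z' : Scheme.{u}} (i : Z ⟶ Z')
    (hi : MoreMor.IsFirstOrderThickening i) (V' : Z'.Opens) :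
    MoreMor.IsFirstOrderThickening (i ∣_ V') := by
  obtain ⟨⟨h1, h2⟩, h3⟩ := hi
  refine ⟨⟨inferInstance, ?_⟩, ?_⟩
  · exact IsZariskiLocalAtTarget.restrict h2 V'
  · have key : ∀ W0, i.ker.ideal W0 * i.ker.ideal W0 = ⊥ := fun W0 => by
      have := congrArg (fun I => Scheme.IdealSheafData.ideal I W0) h3
      simpa using this
    ext W : 2
    rw [Scheme.IdealSheafData.ideal_mul, Pi.mul_apply, Scheme.ker_morphismRestrict_ideal]
    exact key _

theorem isNilpotent_ker_of_firstOrder {Z Z' : Scheme.{u}} (i : Z ⟶ Z')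
    (hi : MoreMor.IsFirstOrderThickening i) : IsNilpotent i.ker :=
  ⟨2, by rw [pow_two]; exact hi.2⟩

theorem restrict_homOfLE {Z Z' : Scheme.{u}} (t : Z ⟶ Z') {V W : Z'.Opens} (h : V ≤ W) :
    (t ∣_ V) ≫ Z'.homOfLE h = Z.homOfLE (t.preimage_mono h) ≫ (t ∣_ W) := by
  rw [← cancel_mono W.ι, Category.assoc, Scheme.homOfLE_ι, morphismRestrict_ι, Category.assoc,
    morphismRestrict_ι, ← Category.assoc, Scheme.homOfLE_ι]

/-- Local lifts along a first-order thickening glue, when `f` is formally unramified. -/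
theorem glue_lift {X Y T T' : Scheme.{u}} (f : X ⟶ Y) [FormallyUnramified f]
    (t : T ⟶ T') (ht : MoreMor.IsFirstOrderThickening t) (a : T ⟶ X) (b : T' ⟶ Y)
    (hloc : ∀ x : T', ∃ W : T'.Opens, x ∈ W ∧ ∃ l : (W : Scheme) ⟶ X,
      (t ∣_ W) ≫ l = (t ⁻¹ᵁ W).ι ≫ a ∧ l ≫ f = W.ι ≫ b) :
    ∃! l : T' ⟶ X, t ≫ l = a ∧ l ≫ f = b := by
  have hci : IsClosedImmersion t := ht.1.1
  choose W hxW l hl1 hl2 using hloc
  have hcov : TopologicalSpace.IsOpenCover W := by
    rw [TopologicalSpace.IsOpenCover, eq_top_iff]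
    intro x _
    exact TopologicalSpace.Opens.mem_iSup.mpr ⟨x, hxW x⟩
  let 𝒰 := T'.openCoverOfIsOpenCover W hcov
  have hcompat : ∀ x y : T', pullback.fst (W x).ι (W y).ι ≫ l x =
      pullback.snd (W x).ι (W y).ι ≫ l y := by
    intro x y
    have key : T'.homOfLE (inf_le_left : W x ⊓ W y ≤ W x) ≫ l x =
        T'.homOfLE (inf_le_right : W x ⊓ W y ≤ W y) ≫ l y := by
      have hV := isFirstOrderThickening_restrict t ht (W x ⊓ W y)
      have : IsClosedImmersion (t ∣_ (W x ⊓ W y)) := hV.1.1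
      refine FormallyUnramified.hom_ext (t ∣_ (W x ⊓ W y)) (isNilpotent_ker_of_firstOrder _ hV) f
        ?_ ?_
      · have e1 : ∀ (z : T') (h : W x ⊓ W y ≤ W z),
            (t ∣_ (W x ⊓ W y)) ≫ T'.homOfLE h ≫ l z = (t ⁻¹ᵁ (W x ⊓ W y)).ι ≫ a := by
          intro z h
          rw [← Category.assoc, restrict_homOfLE, Category.assoc, hl1, ← Category.assoc,
            Scheme.homOfLE_ι]
        rw [e1, e1]
      · rw [Category.assoc, Category.assoc, hl2, hl2, ← Category.assoc, ← Category.assoc,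
          Scheme.homOfLE_ι, Scheme.homOfLE_ι]
    have hc : pullback.fst (W x).ι (W y).ι ≫ (W x).ι = pullback.snd (W x).ι (W y).ι ≫ (W y).ι :=
      pullback.condition
    have hrange : Set.range (pullback.fst (W x).ι (W y).ι ≫ (W x).ι) ⊆
        Set.range (W x ⊓ W y).ι := by
      rintro _ ⟨p, rfl⟩
      rw [Scheme.Opens.range_ι]
      refine ⟨?_, ?_⟩
      · rw [Scheme.Hom.comp_apply]
        exact ((pullback.fst (W x).ι (W y).ι) p).2
      · rw [hc, Scheme.Hom.comp_apply]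
        exact ((pullback.snd (W x).ι (W y).ι) p).2
    let q := IsOpenImmersion.lift (W x ⊓ W y).ι (pullback.fst (W x).ι (W y).ι ≫ (W x).ι) hrange
    have hq : q ≫ (W x ⊓ W y).ι = pullback.fst (W x).ι (W y).ι ≫ (W x).ι :=
      IsOpenImmersion.lift_fac _ _ _
    have hq1 : q ≫ T'.homOfLE (inf_le_left : W x ⊓ W y ≤ W x) = pullback.fst (W x).ι (W y).ι := by
      rw [← cancel_mono (W x).ι, Category.assoc, Scheme.homOfLE_ι, hq]
    have hq2 : q ≫ T'.homOfLE (inf_le_right : W x ⊓ W y ≤ W y) =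
        pullback.snd (W x).ι (W y).ι := by
      rw [← cancel_mono (W y).ι, Category.assoc, Scheme.homOfLE_ι, hq, hc]
    rw [← hq1, ← hq2, Category.assoc, Category.assoc, key]
  let L := 𝒰.glueMorphisms l hcompat
  have hL : ∀ x, (W x).ι ≫ L = l x := fun x => 𝒰.ι_glueMorphisms l hcompat x
  have htL : t ≫ L = a := by
    have hcov' : TopologicalSpace.IsOpenCover (fun x => t ⁻¹ᵁ W x) := by
      rw [TopologicalSpace.IsOpenCover, eq_top_iff]
      intro z _
      exact TopologicalSpace.Opens.mem_iSup.mpr ⟨t z, hxW (t z)⟩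
    refine (T.openCoverOfIsOpenCover _ hcov').hom_ext _ _ fun (x : T') => ?_
    show (t ⁻¹ᵁ W x).ι ≫ t ≫ L = (t ⁻¹ᵁ W x).ι ≫ a
    rw [← Category.assoc, ← morphismRestrict_ι, Category.assoc, hL, hl1]
  have hLf : L ≫ f = b := by
    refine 𝒰.hom_ext _ _ fun (x : T') => ?_
    show (W x).ι ≫ L ≫ f = (W x).ι ≫ b
    rw [← Category.assoc, hL, hl2]
  refine ⟨L, ⟨htL, hLf⟩, ?_⟩
  rintro m ⟨hm1, hm2⟩
  exact FormallyUnramified.hom_ext t (isNilpotent_ker_of_firstOrder t ht) f
    (by rw [hm1, htL]) (by rw [hm2, hLf])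

/-- Ring-level formal étaleness on all affine pairs gives scheme-level formal unramifiedness. -/
theorem formallyUnramified_of_formallyEtale {X Y : Scheme.{u}} (f : X ⟶ Y)
    (H : ∀ (U : X.Opens) (V : Y.Opens) (_ : IsAffineOpen U) (_ : IsAffineOpen V)
      (hUV : U ≤ f ⁻¹ᵁ V), letI := (f.appLE V U hUV).hom.toAlgebra;
        Algebra.FormallyEtale Γ(Y, V) Γ(X, U)) :
    FormallyUnramified f := by
  rw [HasRingHomProperty.iff_appLE (P := @FormallyUnramified)]
  intro V U e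
  have := H U V U.2 V.2 e
  let _ := (f.appLE V U e).hom.toAlgebra
  show Algebra.FormallyUnramified Γ(Y, V) Γ(X, U)
  infer_instance

/-- Ring-level formal étaleness on all affine pairs gives the scheme-level unique lifting
property against affine first-order thickenings. -/
theorem isFormallyEtaleHom_of_formallyEtale {X Y : Scheme.{u}} (f : X ⟶ Y)
    (H : ∀ (U : X.Opens) (V : Y.Opens) (_ : IsAffineOpen U) (_ : IsAffineOpen V)
      (hUV : U ≤ f ⁻¹ᵁ V), letI := (f.appLE V U hUV).hom.toAlgebra;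
        Algebra.FormallyEtale Γ(Y, V) Γ(X, U)) :
    MoreMor.IsFormallyEtaleHom f := by
  have hFU : FormallyUnramified f := formallyUnramified_of_formallyEtale f H
  intro A _ I hI a b w
  set t := Spec.map (CommRingCat.ofHom (Ideal.Quotient.mk I)) with ht_def
  have ht := spec_mk_isFirstOrderThickening A I hI
  have hci : IsClosedImmersion t := ht.1.1
  apply glue_lift f t ht a b
  intro x
  obtain ⟨x', rfl⟩ := spec_mk_surj A I hI x
  obtain ⟨_, ⟨V, hV, rfl⟩, hbV, -⟩ :=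
    Y.isBasis_affineOpens.exists_subset_of_mem_open (Set.mem_univ (b (t x'))) isOpen_univ
  have hax : a x' ∈ f ⁻¹ᵁ V := by
    show f (a x') ∈ V
    rw [← Scheme.Hom.comp_apply, ← w, Scheme.Hom.comp_apply]
    exact hbV
  obtain ⟨_, ⟨U, hU, rfl⟩, haU, hUV⟩ :=
    X.isBasis_affineOpens.exists_subset_of_mem_open hax (f ⁻¹ᵁ V).isOpen
  have hUV' : U ≤ f ⁻¹ᵁ V := hUV
  let O : Set (Spec (CommRingCat.of A)) :=
    (b ⁻¹ᵁ V : Set _) ∩ (t '' (a ⁻¹ᵁ U : Set _)ᶜ)ᶜ
  have hO : IsOpen O := (b ⁻¹ᵁ V).isOpen.inter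
    (t.isClosedEmbedding.isClosedMap _ (a ⁻¹ᵁ U).isOpen.isClosed_compl).isOpen_compl
  have hxO : t x' ∈ O := by
    refine ⟨hbV, ?_⟩
    rintro ⟨y, hy, hyx⟩
    exact hy (t.isClosedEmbedding.injective hyx ▸ haU)
  obtain ⟨_, ⟨W, hW, rfl⟩, hxW, hWO⟩ :=
    (Spec (CommRingCat.of A)).isBasis_affineOpens.exists_subset_of_mem_open hxO hO
  refine ⟨W, hxW, ?_⟩
  have hWO' : ∀ z, z ∈ W → z ∈ O := fun z hz => hWO hz
  have hτ := isFirstOrderThickening_restrict t ht W
  have : IsAffine (W : Scheme) := hW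
  obtain ⟨B, _, J, e, e', hJ, he⟩ := exists_affine_normalForm (t ∣_ W) hτ
  have he' : Spec.map (CommRingCat.ofHom (Ideal.Quotient.mk J)) ≫ e.inv = e'.inv ≫ (t ∣_ W) := by
    rw [Iso.eq_inv_comp, ← Category.assoc, ← he, Category.assoc, Iso.hom_inv_id, Category.comp_id]
  have hrA : Set.range (e'.inv ≫ (t ⁻¹ᵁ W).ι ≫ a) ⊆ U := by
    rintro _ ⟨z, rfl⟩
    set y := (t ⁻¹ᵁ W).ι (e'.inv z) with hy
    have hyW : t y ∈ W := by
      have : y ∈ t ⁻¹ᵁ W := by rw [hy]; exact ((e'.inv z)).2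
      exact this
    have hyU : y ∈ a ⁻¹ᵁ U := by
      by_contra hn
      exact (hWO hyW).2 ⟨y, hn, rfl⟩
    rw [Scheme.Hom.comp_apply, Scheme.Hom.comp_apply]
    exact hyU
  have hrB : Set.range (e.inv ≫ (Scheme.Opens.ι W) ≫ b) ⊆ V := by
    rintro _ ⟨z, rfl⟩
    rw [Scheme.Hom.comp_apply, Scheme.Hom.comp_apply]
    exact (hWO (e.inv z).2).1
  have hw : Spec.map (CommRingCat.ofHom (Ideal.Quotient.mk J)) ≫ e.inv ≫ (Scheme.Opens.ι W) ≫ b =
      (e'.inv ≫ (t ⁻¹ᵁ W).ι ≫ a) ≫ f := by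
    rw [← Category.assoc, he', Category.assoc, ← Category.assoc (t ∣_ W), morphismRestrict_ι,
      Category.assoc, w]
    simp only [Category.assoc]
  obtain ⟨l', hl'1, hl'2⟩ := specLift_of_formallySmooth f hU hV hUV'
    (by have := H U V hU hV hUV'; infer_instance) B J hJ _ _ hrA hrB hw
  refine ⟨e.hom ≫ l', ?_, ?_⟩
  · rw [← Category.assoc, he, Category.assoc, hl'1, Iso.hom_inv_id_assoc]
  · rw [Category.assoc, hl'2, Iso.hom_inv_id_assoc]

/-- The scheme-level unique lifting property gives ring-level formal étaleness on affine pairs. -/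
theorem formallyEtale_of_isFormallyEtaleHom {X Y : Scheme.{u}} (f : X ⟶ Y)
    (hf : MoreMor.IsFormallyEtaleHom f) (U : X.Opens) (V : Y.Opens) (hU : IsAffineOpen U)
    (hV : IsAffineOpen V) (hUV : U ≤ f ⁻¹ᵁ V) :
    letI := (f.appLE V U hUV).hom.toAlgebra; Algebra.FormallyEtale Γ(Y, V) Γ(X, U) := by
  let _ := (f.appLE V U hUV).hom.toAlgebra
  rw [Algebra.FormallyEtale.iff_comp_bijective]
  intro B _ _ J hJ
  -- the square attached to a map `Γ(X, U) → B ⧸ J`
  have hsq : ∀ ψ : Γ(X, U) →ₐ[Γ(Y, V)] B ⧸ J,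
      Spec.map (CommRingCat.ofHom (Ideal.Quotient.mk J)) ≫
          (Spec.map (CommRingCat.ofHom (algebraMap Γ(Y, V) B)) ≫ hV.fromSpec) =
        (Spec.map (CommRingCat.ofHom ψ.toRingHom) ≫ hU.fromSpec) ≫ f := by
    intro ψ
    rw [Category.assoc, ← IsAffineOpen.SpecMap_appLE_fromSpec f hV hU hUV, ← Category.assoc,
      ← Category.assoc, ← Spec.map_comp, ← Spec.map_comp]
    congr 2
    ext r
    show Ideal.Quotient.mk J (algebraMap Γ(Y, V) B r) = ψ (algebraMap Γ(Y, V) Γ(X, U) r)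
    rw [ψ.commutes]
    rfl
  -- a lift `σ` gives a scheme-level lift
  have hlift : ∀ (ψ : Γ(X, U) →ₐ[Γ(Y, V)] B ⧸ J) (σ : Γ(X, U) →ₐ[Γ(Y, V)] B),
      (Ideal.Quotient.mkₐ Γ(Y, V) J).comp σ = ψ →
      Spec.map (CommRingCat.ofHom (Ideal.Quotient.mk J)) ≫
          (Spec.map (CommRingCat.ofHom σ.toRingHom) ≫ hU.fromSpec) =
        Spec.map (CommRingCat.ofHom ψ.toRingHom) ≫ hU.fromSpec ∧
      (Spec.map (CommRingCat.ofHom σ.toRingHom) ≫ hU.fromSpec) ≫ f =
        Spec.map (CommRingCat.ofHom (algebraMap Γ(Y, V) B)) ≫ hV.fromSpec := by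
    intro ψ σ hσ
    constructor
    · rw [← Category.assoc, ← Spec.map_comp, ← hσ]
      rfl
    · rw [Category.assoc, ← IsAffineOpen.SpecMap_appLE_fromSpec f hV hU hUV, ← Category.assoc,
        ← Spec.map_comp]
      congr 2
      ext r
      exact σ.commutes r
  constructor
  · intro σ₁ σ₂ h
    set ψ := (Ideal.Quotient.mkₐ Γ(Y, V) J).comp σ₁ with hψ
    obtain ⟨l, _, huniq⟩ := hf B J hJ _ _ (hsq ψ)
    have h1 := huniq _ (hlift ψ σ₁ rfl)
    have h2 := huniq _ (hlift ψ σ₂ h.symm)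
    have h12 := h1.trans h2.symm
    rw [cancel_mono] at h12
    have h12' := Spec.map_injective h12
    ext x
    exact congrArg (fun g => g.hom x) h12'
  · intro ψ
    obtain ⟨l, ⟨hl1, hl2⟩, -⟩ := hf B J hJ _ _ (hsq ψ)
    have hrange : Set.range l ⊆ U := by
      rintro _ ⟨p, rfl⟩
      obtain ⟨q, rfl⟩ := spec_mk_surj B J hJ p
      rw [← Scheme.Hom.comp_apply, hl1, ← IsAffineOpen.range_fromSpec hU]
      exact ⟨_, rfl⟩
    obtain ⟨σ0, hσ0⟩ := exists_specMap_of_range hU l hrange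
    have hcomm : f.appLE V U hUV ≫ σ0 = CommRingCat.ofHom (algebraMap Γ(Y, V) B) := by
      apply Spec.map_injective
      rw [← cancel_mono hV.fromSpec, Spec.map_comp, Category.assoc,
        IsAffineOpen.SpecMap_appLE_fromSpec f hV hU hUV, ← Category.assoc, hσ0, hl2]
    have hmk : σ0 ≫ CommRingCat.ofHom (Ideal.Quotient.mk J) = CommRingCat.ofHom ψ.toRingHom := by
      apply Spec.map_injective
      rw [← cancel_mono hU.fromSpec, Spec.map_comp, Category.assoc, hσ0, hl1]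
    let σ : Γ(X, U) →ₐ[Γ(Y, V)] B :=
      { σ0.hom with
        commutes' := fun r => congrArg (fun g => g.hom r) hcomm }
    refine ⟨σ, ?_⟩
    ext x
    exact congrArg (fun g => g.hom x) hmk

end Groth.Agent.Lib.Helper3.FEt
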