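import Mathlib.Algebra.Colimit.TensorProduct
import Mathlib.LinearAlgebra.TensorProduct.Finiteness
import Mathlib.LinearAlgebra.TensorProduct.RightExactness
import Mathlib.LinearAlgebra.TensorProduct.Pi
import Mathlib.Algebra.Module.FinitePresentation
import Mathlib.RingTheory.Finiteness.Cardinality

/-!
# Universal injectivity can be tested on finitely presented modules (helper3)

* `rTensor_injective_of_fg`: if `f.rTensor ((Fin n → R) ⧸ K)` is injective for all f.g. `K`,
  then `f.rTensor Q` is injective for all finite `Q`.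
* `rTensor_injective_of_quot`: the same for every `Q`.
-/

set_option autoImplicit false

namespace Groth.Agent.Lib.Helper3

open TensorProduct

universe u

variable {R M N : Type u} [CommRing R] [AddCommGroup M] [Module R M] [AddCommGroup N] [Module R N]

theorem rTensor_lTensor_apply {P Q : Type u} [AddCommGroup P] [Module R P] [AddCommGroup Q]
    [Module R Q] (f : M →ₗ[R] N) (g : P →ₗ[R] Q) (x : M ⊗[R] P) :
    f.rTensor Q (g.lTensor M x) = g.lTensor N (f.rTensor P x) := by
  rw [← LinearMap.comp_apply, ← LinearMap.comp_apply, LinearMap.rTensor_comp_lTensor,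
    LinearMap.lTensor_comp_rTensor]

theorem rTensor_injective_of_fg (f : M →ₗ[R] N)
    (H : ∀ (n : ℕ) (K : Submodule R (Fin n → R)), K.FG →
      Function.Injective (f.rTensor ((Fin n → R) ⧸ K)))
    (Q : Type u) [AddCommGroup Q] [Module R Q] [Module.Finite R Q] :
    Function.Injective (f.rTensor Q) := by
  obtain ⟨n, π, hπ⟩ := Module.Finite.exists_fin' R Q
  rw [injective_iff_map_eq_zero]
  intro x hx
  obtain ⟨u, rfl⟩ := LinearMap.lTensor_surjective M hπ x
  rw [rTensor_lTensor_apply] at hx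
  have hex' := lTensor_exact N (LinearMap.exact_subtype_ker_map π) hπ
  obtain ⟨w, hw⟩ := (hex' _).mp hx
  obtain ⟨K₀, hK₀fin, hw0⟩ :=
    TensorProduct.exists_finite_submodule_right_of_setFinite {w} (Set.finite_singleton w)
  obtain ⟨w₀, hw₀⟩ := hw0 (Set.mem_singleton w)
  let K₁ : Submodule R (Fin n → R) := K₀.map (LinearMap.ker π).subtype
  have hK₁ : K₁.FG := (Module.Finite.iff_fg.mp hK₀fin).map _
  have hK₁le : K₁ ≤ LinearMap.ker π := by
    rintro _ ⟨y, -, rfl⟩; exact y.2
  have hzero : K₁.mkQ ∘ₗ (LinearMap.ker π).subtype ∘ₗ K₀.subtype = 0 := by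
    ext y
    simp only [LinearMap.comp_apply, LinearMap.zero_apply, Submodule.mkQ_apply,
      Submodule.Quotient.mk_eq_zero]
    exact ⟨y, y.2, rfl⟩
  have hx' : f.rTensor _ (K₁.mkQ.lTensor M u) = f.rTensor _ 0 := by
    rw [rTensor_lTensor_apply, map_zero, ← hw, ← hw₀, ← LinearMap.comp_apply,
      ← LinearMap.comp_apply, ← LinearMap.lTensor_comp, ← LinearMap.lTensor_comp,
      LinearMap.comp_assoc, hzero, LinearMap.lTensor_zero, LinearMap.zero_apply]
  have h0 := H n K₁ hK₁ hx'
  have hψ : (K₁.liftQ π hK₁le) ∘ₗ K₁.mkQ = π := K₁.liftQ_mkQ π hK₁le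
  calc π.lTensor M u = (K₁.liftQ π hK₁le).lTensor M (K₁.mkQ.lTensor M u) := by
        rw [← LinearMap.comp_apply, ← LinearMap.lTensor_comp, hψ]
    _ = 0 := by rw [h0, map_zero]

theorem rTensor_injective_of_quot (f : M →ₗ[R] N)
    (H : ∀ (n : ℕ) (K : Submodule R (Fin n → R)), K.FG →
      Function.Injective (f.rTensor ((Fin n → R) ⧸ K)))
    (Q : Type u) [AddCommGroup Q] [Module R Q] :
    Function.Injective (f.rTensor Q) := by
  rw [injective_iff_map_eq_zero]
  intro x hx
  obtain ⟨Q₁, hQ₁fin, hQ₁⟩ :=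
    TensorProduct.exists_finite_submodule_right_of_setFinite {x} (Set.finite_singleton x)
  obtain ⟨x₁, rfl⟩ := hQ₁ (Set.mem_singleton x)
  rw [rTensor_lTensor_apply] at hx
  set y := TensorProduct.comm R N Q₁ (f.rTensor Q₁ x₁) with hy_def
  have hy : Q₁.subtype.rTensor N y = Q₁.subtype.rTensor N 0 := by
    rw [map_zero, hy_def]
    have : Q₁.subtype.rTensor N (TensorProduct.comm R N Q₁ (f.rTensor Q₁ x₁)) =
        TensorProduct.comm R N Q (Q₁.subtype.lTensor N (f.rTensor Q₁ x₁)) := by
      exact LinearMap.rTensor_comm _ _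
    rw [this, hx, map_zero]
  obtain ⟨Q₂, hQ₂fg, hle, hQ₂⟩ :=
    Submodule.FG.exists_rTensor_fg_inclusion_eq (Module.Finite.iff_fg.mp hQ₁fin) hy
  have : Module.Finite R Q₂ := Module.Finite.iff_fg.mpr hQ₂fg
  have h2 : f.rTensor Q₂ ((Submodule.inclusion hle).lTensor M x₁) = f.rTensor Q₂ 0 := by
    rw [rTensor_lTensor_apply, map_zero]
    rw [hy_def, LinearMap.rTensor_comm, map_zero] at hQ₂
    have := (TensorProduct.comm R N Q₂).injective (hQ₂.trans (map_zero _).symm)
    rw [this]
  have h3 := rTensor_injective_of_fg f H Q₂ h2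
  calc Q₁.subtype.lTensor M x₁ = Q₂.subtype.lTensor M ((Submodule.inclusion hle).lTensor M x₁) := by
        rw [← LinearMap.comp_apply, ← LinearMap.lTensor_comp]; rfl
    _ = 0 := by rw [h3, map_zero]

end Groth.Agent.Lib.Helper3
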